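import Mathlib

/-!
# The automorphisms of the root system of the centraliser of an involution of `F₄` (helper166, S5745)

`rigid` : an additive automorphism of `ℤ⁴` preserving the positive roots `a` of `F₄` with `⟨c, a⟩` even (`c ≠ 0` modulo
`2`) is the identity.
-/

set_option autoImplicit false

namespace Cfsg.Agent.H166.EP.F4Rig

/-- the codes of the positive roots of `F₄` -/
def posC : List ℕ := [4096, 256, 4352, 16, 272, 4368, 288, 4384, 4640, 1, 17, 273, 4369, 289, 4385, 4641, 4657, 290,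
  4386, 4642, 4658, 4674, 4930, 9026]

/-- the vector of a code -/
def dec (n : ℕ) : Fin 4 → ℤ := ![((n % 16 : ℕ) : ℤ), ((n / 16 % 16 : ℕ) : ℤ), ((n / 256 % 16 : ℕ) : ℤ),
  ((n / 4096 % 16 : ℕ) : ℤ)]

/-- parity of `⟨c, a⟩` -/
def par (c0 c1 c2 c3 n : ℕ) : Bool :=
  Nat.beq (Nat.mod (Nat.add (Nat.add (Nat.mul c0 (n % 16)) (Nat.mul c1 (n / 16 % 16)))
    (Nat.add (Nat.mul c2 (n / 256 % 16)) (Nat.mul c3 (n / 4096 % 16)))) 2) 0

/-- the codes of the positive roots `a` with `⟨c, a⟩` even -/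
def Lc (c0 c1 c2 c3 : ℕ) : List ℕ := posC.filter (par c0 c1 c2 c3)

def mem (L : List ℕ) (n : ℕ) : Bool := L.any (Nat.beq n)

def cA (L : List ℕ) (a : ℕ) : ℕ := (L.filter fun x => mem L (Nat.add a x)).length

def cS (L : List ℕ) (a : ℕ) : ℕ := (L.filter fun x => L.any fun y => Nat.beq (Nat.add x y) a).length

/-- `a` is the only element of `L` with its invariants -/
def uniq (L : List ℕ) (a : ℕ) : Bool :=
  mem L a && L.all fun b => Nat.beq b a || !(Nat.beq (cA L b) (cA L a)) || !(Nat.beq (cS L b) (cS L a))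

/-- the table: `c`, four roots, the coefficients -/
def tab : List ((ℕ × ℕ × ℕ × ℕ) × List ℕ × List (List ℤ) × ℤ) := [
  ((0, 0, 0, 1), [256, 273, 289, 9026], [[-2, 4, -2, 0], [0, -2, 2, 0], [2, 0, 0, 0], [-1, 0, -2, 1]], 2),
  ((0, 0, 1, 0), [4096, 4640, 4657, 4658], [[0, 0, -2, 2], [0, -2, 4, -2], [-1, 3, -4, 2], [2, 0, 0, 0]], 2),
  ((0, 0, 1, 1), [4352, 4369, 4385, 4930], [[-2, 4, -2, 0], [0, -2, 2, 0], [1, 0, -2, 1], [1, 0, 2, -1]], 2),
  ((0, 1, 0, 0), [1, 289, 4385, 4641], [[2, 0, 0, 0], [-1, 1, 1, -1], [0, 0, -2, 2], [0, -2, 2, 0]], 2),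
  ((0, 1, 0, 1), [256, 288, 4657, 4658], [[0, 0, -2, 2], [-1, 1, 0, 0], [2, 0, 0, 0], [-1, -3, 4, -2]], 2),
  ((0, 1, 1, 0), [4096, 4369, 4641, 4674], [[-2, 4, -2, 0], [1, -2, 0, 1], [-1, 0, 2, -1], [2, 0, 0, 0]], 2),
  ((0, 1, 1, 1), [4352, 4384, 4657, 4658], [[0, 0, -2, 2], [-1, 1, 0, 0], [1, -3, 4, -2], [1, 3, -4, 2]], 2),
  ((1, 0, 0, 0), [16, 272, 4368, 4658], [[-1, -1, -1, 1], [2, 0, 0, 0], [-2, 2, 0, 0], [0, -2, 2, 0]], 2),
  ((1, 0, 0, 1), [256, 4641, 4657, 290], [[-1, 2, -2, 1], [0, -2, 2, 0], [2, 0, 0, 0], [-3, 4, -2, -1]], 2),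
  ((1, 0, 1, 0), [4096, 4640, 4385, 4658], [[1, -1, -2, 2], [-2, 0, 4, -2], [1, 1, -4, 2], [2, 0, 0, 0]], 2),
  ((1, 0, 1, 1), [4352, 4641, 4657, 4386], [[-1, 2, -2, 1], [0, -2, 2, 0], [-1, 4, -2, -1], [3, -4, 2, 1]], 2),
  ((1, 1, 0, 0), [17, 273, 4369, 4657], [[1, 1, 1, -1], [1, -1, -1, 1], [-2, 2, 0, 0], [0, -2, 2, 0]], 2),
  ((1, 1, 0, 1), [256, 288, 4641, 4658], [[1, -1, -2, 2], [-1, 1, 0, 0], [2, 0, 0, 0], [-3, -1, 4, -2]], 2),
  ((1, 1, 1, 0), [4096, 4385, 4657, 4642], [[-1, 2, -2, 1], [-1, 2, 0, -1], [1, -4, 2, 1], [2, 0, 0, 0]], 2),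
  ((1, 1, 1, 1), [4352, 4384, 4641, 4658], [[1, -1, -2, 2], [-1, 1, 0, 0], [-1, -1, 4, -2], [3, 1, -4, 2]], 2)]

/-- the linear combination -/
def lin (M : List ℤ) (q : List ℕ) (k : Fin 4) : ℤ := (List.zipWith (fun m n => m * dec n k) M q).sum

def chk (c0 c1 c2 c3 : ℕ) : Prop :=
  (c0 = 0 ∧ c1 = 0 ∧ c2 = 0 ∧ c3 = 0) ∨ ∃ r ∈ tab, r.1 = (c0, c1, c2, c3) ∧ r.2.2.2 ≠ 0 ∧
    (∀ a ∈ r.2.1, uniq (Lc c0 c1 c2 c3) a = true) ∧
    ∀ i : Fin 4, ∀ k : Fin 4, lin (r.2.2.1.getD i []) r.2.1 k = if k = i then r.2.2.2 else 0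

instance (c0 c1 c2 c3 : ℕ) : Decidable (chk c0 c1 c2 c3) := by unfold chk; infer_instance

theorem chk_all : ∀ c0 < 2, ∀ c1 < 2, ∀ c2 < 2, ∀ c3 < 2, chk c0 c1 c2 c3 := by decide +kernel

theorem posC_nodup : posC.Nodup := by decide +kernel

theorem posC_lt : ∀ n ∈ posC, ∀ m ∈ posC, (n + m) % 16 = n % 16 + m % 16 ∧
    (n + m) / 16 % 16 = n / 16 % 16 + m / 16 % 16 ∧ (n + m) / 256 % 16 = n / 256 % 16 + m / 256 % 16 ∧
    (n + m) / 4096 % 16 = n / 4096 % 16 + m / 4096 % 16 ∧ n + m < 65536 := by decide +kernel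

theorem dec_inj {n m : ℕ} (hn : n < 65536) (hm : m < 65536) (h : dec n = dec m) : n = m := by
  have h0 : ((n % 16 : ℕ) : ℤ) = ((m % 16 : ℕ) : ℤ) := congrFun h 0
  have h1 : ((n / 16 % 16 : ℕ) : ℤ) = ((m / 16 % 16 : ℕ) : ℤ) := congrFun h 1
  have h2 : ((n / 256 % 16 : ℕ) : ℤ) = ((m / 256 % 16 : ℕ) : ℤ) := congrFun h 2
  have h3 : ((n / 4096 % 16 : ℕ) : ℤ) = ((m / 4096 % 16 : ℕ) : ℤ) := congrFun h 3
  omega

theorem dec_add {n m : ℕ} (hn : n ∈ posC) (hm : m ∈ posC) : dec (n + m) = dec n + dec m := by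
  obtain ⟨h0, h1, h2, h3, -⟩ := posC_lt n hn m hm
  unfold dec
  rw [h0, h1, h2, h3]
  funext i
  fin_cases i <;> simp [Pi.add_apply]

theorem posC_lt' {n : ℕ} (hn : n ∈ posC) : n < 65536 := by
  have := (posC_lt n hn n hn).2.2.2.2
  omega

theorem add_eq_iff {a b c : ℕ} (ha : a ∈ posC) (hb : b ∈ posC) (hc : c ∈ posC) :
    a + b = c ↔ dec a + dec b = dec c := by
  rw [← dec_add ha hb]
  constructor
  · rintro rfl; rfl
  · exact dec_inj (posC_lt a ha b hb).2.2.2.2 (posC_lt' hc)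

theorem mem_iff (L : List ℕ) (n : ℕ) : mem L n = true ↔ n ∈ L := by
  unfold mem
  rw [List.any_eq_true]
  constructor
  · rintro ⟨x, hx, h⟩
    rw [Nat.eq_of_beq_eq_true h]
    exact hx
  · intro h
    exact ⟨n, h, Nat.beq_refl n⟩

section

variable {L : List ℕ} (hL : L.Nodup) {γ : ℕ → ℕ} (h1 : ∀ x ∈ L, γ x ∈ L)
  (h2 : ∀ x ∈ L, ∀ y ∈ L, γ x = γ y → x = y) (h3 : ∀ x ∈ L, ∀ y ∈ L, ∀ z ∈ L, x + y = z ↔ γ x + γ y = γ z)

include h1 h2 in
theorem surj {y : ℕ} (hy : y ∈ L) : ∃ x ∈ L, γ x = y := by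
  have h4 : L.toFinset.image γ = L.toFinset := by
    apply Finset.eq_of_subset_of_card_le
    · intro z hz
      obtain ⟨x, hx, rfl⟩ := Finset.mem_image.1 hz
      exact List.mem_toFinset.2 (h1 x (List.mem_toFinset.1 hx))
    · rw [Finset.card_image_of_injOn]
      intro x hx y hy
      exact h2 x (List.mem_toFinset.1 hx) y (List.mem_toFinset.1 hy)
  have h5 : y ∈ L.toFinset.image γ := by rw [h4]; exact List.mem_toFinset.2 hy
  obtain ⟨x, hx, rfl⟩ := Finset.mem_image.1 h5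
  exact ⟨x, List.mem_toFinset.1 hx, rfl⟩

include hL in
theorem length_filter (P : ℕ → Bool) : (L.filter P).length = (L.toFinset.filter fun x => P x = true).card := by
  rw [← List.toFinset_card_of_nodup (hL.filter _)]
  congr 1
  ext x
  simp

include hL h1 h2 h3 in
theorem cA_eq {a : ℕ} (ha : a ∈ L) : cA L (γ a) = cA L a := by
  unfold cA
  rw [length_filter hL, length_filter hL]
  refine (Finset.card_bij (fun x _ => γ x) ?_ ?_ ?_).symm
  · intro x hx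
    obtain ⟨hx, hx'⟩ := Finset.mem_filter.1 hx
    rw [List.mem_toFinset] at hx
    have hx' := (mem_iff _ _).1 hx'
    refine Finset.mem_filter.2 ⟨List.mem_toFinset.2 (h1 x hx), (mem_iff _ _).2 ?_⟩
    show γ a + γ x ∈ L
    rw [(h3 a ha x hx (a + x) hx').1 rfl]
    exact h1 _ hx'
  · intro x hx y hy h
    exact h2 x (List.mem_toFinset.1 (Finset.mem_filter.1 hx).1) y (List.mem_toFinset.1 (Finset.mem_filter.1 hy).1) h
  · intro y hy
    obtain ⟨hy, hy'⟩ := Finset.mem_filter.1 hy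
    rw [List.mem_toFinset] at hy
    have hy' := (mem_iff _ _).1 hy'
    obtain ⟨x, hx, rfl⟩ := surj h1 h2 hy
    refine ⟨x, Finset.mem_filter.2 ⟨List.mem_toFinset.2 hx, (mem_iff _ _).2 ?_⟩, rfl⟩
    obtain ⟨z, hz, e⟩ := surj h1 h2 hy'
    show a + x ∈ L
    rw [(h3 a ha x hx z hz).2 e.symm]
    exact hz

include hL h1 h2 h3 in
theorem cS_eq {a : ℕ} (ha : a ∈ L) : cS L (γ a) = cS L a := by
  unfold cS
  rw [length_filter hL, length_filter hL]
  refine (Finset.card_bij (fun x _ => γ x) ?_ ?_ ?_).symm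
  · intro x hx
    obtain ⟨hx, hx'⟩ := Finset.mem_filter.1 hx
    rw [List.mem_toFinset] at hx
    obtain ⟨y, hy, e⟩ := List.any_eq_true.1 hx'
    refine Finset.mem_filter.2 ⟨List.mem_toFinset.2 (h1 x hx), List.any_eq_true.2 ⟨γ y, h1 y hy, ?_⟩⟩
    rw [Nat.beq_eq] at e ⊢
    exact (h3 x hx y hy a ha).1 e
  · intro x hx y hy h
    exact h2 x (List.mem_toFinset.1 (Finset.mem_filter.1 hx).1) y (List.mem_toFinset.1 (Finset.mem_filter.1 hy).1) h
  · intro x' hx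
    obtain ⟨hx, hx'⟩ := Finset.mem_filter.1 hx
    rw [List.mem_toFinset] at hx
    obtain ⟨y', hy, e⟩ := List.any_eq_true.1 hx'
    obtain ⟨x, hx2, rfl⟩ := surj h1 h2 hx
    obtain ⟨y, hy2, rfl⟩ := surj h1 h2 hy
    refine ⟨x, Finset.mem_filter.2 ⟨List.mem_toFinset.2 hx2, List.any_eq_true.2 ⟨y, hy2, ?_⟩⟩, rfl⟩
    rw [Nat.beq_eq] at e ⊢
    exact (h3 x hx2 y hy2 a ha).2 e

include hL h1 h2 h3 in
theorem uniq_fix {a : ℕ} (ha : uniq L a = true) : γ a = a := by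
  unfold uniq at ha
  rw [Bool.and_eq_true, List.all_eq_true] at ha
  obtain ⟨ha1, ha2⟩ := ha
  have ha1 := (mem_iff _ _).1 ha1
  have h4 := ha2 (γ a) (h1 a ha1)
  rw [cA_eq hL h1 h2 h3 ha1, cS_eq hL h1 h2 h3 ha1, Nat.beq_refl, Nat.beq_refl] at h4
  simpa using h4

end

/-- **Rigidity.** -/
theorem rigid {c0 c1 c2 c3 : ℕ} (hc0 : c0 < 2) (hc1 : c1 < 2) (hc2 : c2 < 2) (hc3 : c3 < 2)
    (hc : ¬ (c0 = 0 ∧ c1 = 0 ∧ c2 = 0 ∧ c3 = 0)) (g : (Fin 4 → ℤ) ≃+ (Fin 4 → ℤ))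
    (hg : ∀ n ∈ Lc c0 c1 c2 c3, ∃ m ∈ Lc c0 c1 c2 c3, g (dec n) = dec m) (x : Fin 4 → ℤ) : g x = x := by
  set L := Lc c0 c1 c2 c3 with hLdef
  have hL : L.Nodup := posC_nodup.filter _
  have hLp : ∀ n ∈ L, n ∈ posC := fun n hn => (List.mem_filter.1 hn).1
  classical
  let γ : ℕ → ℕ := fun n => if h : n ∈ L then (hg n h).choose else 0
  have hγ : ∀ n (_ : n ∈ L), γ n ∈ L ∧ g (dec n) = dec (γ n) := by
    intro n hn
    have e : γ n = (hg n hn).choose := dif_pos hn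
    rw [e]
    exact (hg n hn).choose_spec
  have h1 : ∀ x ∈ L, γ x ∈ L := fun x hx => (hγ x hx).1
  have h2 : ∀ x ∈ L, ∀ y ∈ L, γ x = γ y → x = y := by
    intro x hx y hy h
    apply dec_inj (posC_lt' (hLp x hx)) (posC_lt' (hLp y hy))
    apply g.injective
    rw [(hγ x hx).2, (hγ y hy).2, h]
  have h3 : ∀ x ∈ L, ∀ y ∈ L, ∀ z ∈ L, x + y = z ↔ γ x + γ y = γ z := by
    intro x hx y hy z hz
    rw [add_eq_iff (hLp x hx) (hLp y hy) (hLp z hz), add_eq_iff (hLp _ (h1 x hx)) (hLp _ (h1 y hy)) (hLp _ (h1 z hz)),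
      ← (hγ x hx).2, ← (hγ y hy).2, ← (hγ z hz).2, ← map_add]
    exact ⟨fun h => congrArg g h, fun h => g.injective h⟩
  have hfix : ∀ n, uniq L n = true → g (dec n) = dec n := by
    intro n hn
    have h4 := uniq_fix hL h1 h2 h3 hn
    have h5 : n ∈ L := by
      unfold uniq at hn
      rw [Bool.and_eq_true] at hn
      exact (mem_iff _ _).1 hn.1
    rw [(hγ n h5).2, h4]
  rcases chk_all c0 hc0 c1 hc1 c2 hc2 c3 hc3 with h0 | ⟨⟨cc, q, M, d⟩, -, -, hd, hq, hlin⟩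
  · exact absurd h0 hc
  · -- `g` fixes the standard vectors
    have hcomb : ∀ (q : List ℕ) (M : List ℤ), (∀ a ∈ q, uniq L a = true) →
        g (fun k => lin M q k) = fun k => lin M q k := by
      intro q
      induction q with
      | nil =>
        intro M _
        have e : (fun k => lin M [] k) = (0 : Fin 4 → ℤ) := by funext k; simp [lin]
        rw [e, map_zero]
      | cons a q ih =>
        intro M hq
        rcases M with _ | ⟨m, M⟩
        · have e : (fun k => lin [] (a :: q) k) = (0 : Fin 4 → ℤ) := by funext k; simp [lin]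
          rw [e, map_zero]
        · have e : (fun k => lin (m :: M) (a :: q) k) = m • dec a + fun k => lin M q k := by
            funext k
            simp [lin]
          rw [e, map_add, map_zsmul, hfix a (hq a (List.mem_cons_self ..)), ih M fun b hb => hq b (List.mem_cons_of_mem _ hb)]
    have hbas : ∀ i : Fin 4, g (Pi.single i 1) = Pi.single i 1 := by
      intro i
      have h5 := hcomb q (M.getD i []) hq
      have h6 : (fun k => lin (M.getD i []) q k) = d • (Pi.single i 1 : Fin 4 → ℤ) := by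
        funext k
        rw [hlin i k, Pi.smul_apply, Pi.single_apply]
        split_ifs <;> simp
      rw [h6, map_zsmul] at h5
      exact smul_right_injective _ hd h5
    have hx : x = ∑ i, x i • (Pi.single i 1 : Fin 4 → ℤ) := by
      funext k
      simp [Finset.sum_apply, Pi.single_apply]
    rw [hx, map_sum]
    exact Finset.sum_congr rfl fun i _ => by rw [map_zsmul, hbas]

end Cfsg.Agent.H166.EP.F4Rig
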